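import Cfsg.Agent.H792.M23.Loc
import Cfsg.Agent.Characters.SchurBound

/-!
# `(B23)`, the local part (helper436)

* `top_of` : in a group of order 24 with a self-centralizing element `v` of order 3 a normal subgroup which contains
  an involution with a centralizer of order 4 is the whole group.
* `one_of_value` : hence the only irreducible character with `θ(t₀) = θ(1)` is the trivial one.
* `mem_principal` : the height zero characters with `ω(t) = |t^G|` modulo `p` are in the principal block.
-/

set_option autoImplicit false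
set_option linter.unusedSectionVars false

open Cfsg Subgroup
open scoped ComplexConjugate

namespace Cfsg.Agent.H436.M23.BTwA

open Cfsg.Agent.Characters.Core
open Cfsg.Agent.SmallSimple.ThetaSetup Cfsg.Agent.SmallSimple.ThetaOrtho
open Cfsg.Agent.SmallSimple.TheoremC Cfsg.Agent.SmallSimple.TheoremCCor
open Cfsg.Agent.SmallSimple
open Cfsg.Agent.H606.OreM.Block Cfsg.Agent.H606.OreM.Exact

universe u

theorem top_of {K : Type u} [Group K] [Finite K] (hk : Nat.card K = 24) {v : K}
    (hv : Nat.card (centralizer ({v} : Set K)) = 3) {t0 : K} (h2 : t0 * t0 = 1)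
    (hc : Nat.card (centralizer ({t0} : Set K)) = 4) (N : Subgroup K) [N.Normal] (ht : t0 ∈ N) : N = ⊤ := by
  classical
  have := Fintype.ofFinite K
  have hvm : v ∈ centralizer ({v} : Set K) := mem_centralizer_singleton_iff.2 rfl
  have htm : t0 ∈ centralizer ({t0} : Set K) := mem_centralizer_singleton_iff.2 rfl
  have hv1 : v ≠ 1 := by
    rintro rfl
    rw [show centralizer ({1} : Set K) = ⊤ from by
      ext g; simp [mem_centralizer_singleton_iff], Subgroup.card_top, hk] at hv
    omega
  have ht1 : t0 ≠ 1 := by
    rintro rfl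
    rw [show centralizer ({1} : Set K) = ⊤ from by
      ext g; simp [mem_centralizer_singleton_iff], Subgroup.card_top, hk] at hc
    omega
  have hvo : orderOf v = 3 := by
    have h1 : orderOf v ∣ 3 := by rw [← hv, ← Subgroup.orderOf_mk v hvm]; exact orderOf_dvd_natCard _
    rcases (Nat.dvd_prime Nat.prime_three).1 h1 with h | h
    · exact absurd (orderOf_eq_one_iff.1 h) hv1
    · exact h
  have hto : orderOf t0 = 2 := orderOf_eq_prime (by rw [pow_two, h2]) ht1
  have hvz : zpowers v = centralizer ({v} : Set K) := by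
    apply Subgroup.eq_of_le_of_card_ge
    · rw [zpowers_le]; exact hvm
    · rw [hv, Nat.card_zpowers, hvo]
  have i1 : (centralizer ({v} : Set K)).index = 8 := by
    have := (centralizer ({v} : Set K)).card_mul_index
    rw [hv, hk] at this
    omega
  have i2 : (centralizer ({t0} : Set K)).index = 6 := by
    have := (centralizer ({t0} : Set K)).card_mul_index
    rw [hc, hk] at this
    omega
  have c1 := Cfsg.Agent.Characters.ClassMul.card_filter_isConj v
  have c2 := Cfsg.Agent.Characters.ClassMul.card_filter_isConj t0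
  rw [i1] at c1
  rw [i2] at c2
  have hsub : ∀ g ∈ N, ∀ h : K, IsConj g h → h ∈ N := by
    intro g hg h hgh
    obtain ⟨c, rfl⟩ := isConj_iff.1 hgh
    exact ‹N.Normal›.conj_mem g hg c
  have hcard : Nat.card N = (Finset.univ.filter (· ∈ N)).card := by
    rw [Nat.card_eq_fintype_card, Fintype.card_subtype]
  have hord : ∀ g h : K, IsConj g h → orderOf h = orderOf g := fun g h hgh => by
    obtain ⟨c, rfl⟩ := isConj_iff.1 hgh
    exact orderOf_injective (MulAut.conj c).toMonoidHom (MulAut.conj c).injective g
  have hdisj1 : Disjoint ({1} : Finset K) (Finset.univ.filter (IsConj t0)) := by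
    rw [Finset.disjoint_left]
    intro a ha hb
    rw [Finset.mem_singleton] at ha
    rw [Finset.mem_filter] at hb
    have := hord _ _ hb.2
    rw [ha, orderOf_one, hto] at this
    omega
  have h7 : 7 ≤ Nat.card N := by
    rw [hcard]
    calc 7 = (({1} : Finset K) ∪ Finset.univ.filter (IsConj t0)).card := by
          rw [Finset.card_union_of_disjoint hdisj1, c2, Finset.card_singleton]
      _ ≤ _ := by
          apply Finset.card_le_card
          intro a ha
          rw [Finset.mem_union, Finset.mem_singleton, Finset.mem_filter] at ha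
          rw [Finset.mem_filter]
          refine ⟨Finset.mem_univ _, ?_⟩
          rcases ha with rfl | ⟨-, ha⟩
          · exact one_mem N
          · exact hsub _ ht _ ha
  have hdvd : Nat.card N ∣ 24 := by rw [← hk]; exact N.card_subgroup_dvd_card
  have hle : Nat.card N ≤ 24 := Nat.le_of_dvd (by norm_num) hdvd
  have h24 : Nat.card N = 24 := by
    by_cases hvN : v ∈ N
    · have h15 : 15 ≤ Nat.card N := by
        rw [hcard]
        have hd2 : Disjoint (({1} : Finset K) ∪ Finset.univ.filter (IsConj t0)) (Finset.univ.filter (IsConj v)) := by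
          rw [Finset.disjoint_left]
          intro a ha hb
          rw [Finset.mem_filter] at hb
          have h3 := hord _ _ hb.2
          rw [Finset.mem_union, Finset.mem_singleton, Finset.mem_filter] at ha
          rcases ha with rfl | ⟨-, ha⟩
          · rw [orderOf_one, hvo] at h3; omega
          · rw [hord _ _ ha, hto, hvo] at h3; omega
        calc 15 = ((({1} : Finset K) ∪ Finset.univ.filter (IsConj t0)) ∪ Finset.univ.filter (IsConj v)).card := by
              rw [Finset.card_union_of_disjoint hd2, Finset.card_union_of_disjoint hdisj1, c1, c2,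
                Finset.card_singleton]
          _ ≤ _ := by
              apply Finset.card_le_card
              intro a ha
              rw [Finset.mem_union, Finset.mem_union, Finset.mem_singleton, Finset.mem_filter, Finset.mem_filter] at ha
              rw [Finset.mem_filter]
              refine ⟨Finset.mem_univ _, ?_⟩
              rcases ha with (rfl | ⟨-, ha⟩) | ⟨-, ha⟩
              · exact one_mem N
              · exact hsub _ ht _ ha
              · exact hsub _ hvN _ ha
      interval_cases h : Nat.card N <;> first | rfl | (exfalso; revert hdvd; decide)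
    · exfalso
      have : Fact (Nat.Prime 3) := ⟨Nat.prime_three⟩
      let act : MulAction (zpowers v) N :=
        MulAction.compHom N ((MulAut.conjNormal (H := N)).comp (zpowers v).subtype)
      have hpg : IsPGroup 3 (zpowers v) := IsPGroup.of_card (n := 1) (by rw [Nat.card_zpowers, hvo, pow_one])
      have hmod := hpg.card_modEq_card_fixedPoints N
      have hfix : MulAction.fixedPoints (zpowers v) N = {1} := by
        ext n
        rw [MulAction.mem_fixedPoints, Set.mem_singleton_iff]
        constructor
        · intro h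
          have h3 := congrArg Subtype.val (h ⟨v, mem_zpowers v⟩)
          have h4 : v * (n : K) * v⁻¹ = n := h3
          have h5 : (n : K) ∈ centralizer ({v} : Set K) := by
            rw [mem_centralizer_singleton_iff]
            calc (n : K) * v = (v * n * v⁻¹) * v := by rw [h4]
              _ = v * n := by group
          rw [← hvz] at h5
          by_contra hn1
          apply hvN
          have h6 : zpowers (n : K) = zpowers v := by
            apply Subgroup.eq_of_le_of_card_ge
            · rw [zpowers_le]; exact h5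
            · have h7 : orderOf (n : K) ∣ 3 := by
                have h8 := Subgroup.card_dvd_of_le (show zpowers (n : K) ≤ zpowers v by rw [zpowers_le]; exact h5)
                rwa [Nat.card_zpowers, Nat.card_zpowers, hvo] at h8
              rcases (Nat.dvd_prime Nat.prime_three).1 h7 with h8 | h8
              · exact absurd (Subtype.ext (orderOf_eq_one_iff.1 h8)) hn1
              · rw [Nat.card_zpowers, Nat.card_zpowers, hvo, h8]
          have h7 : v ∈ zpowers (n : K) := by rw [h6]; exact mem_zpowers v
          exact (zpowers_le.2 n.2) h7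
        · rintro rfl
          intro g
          exact map_one (MulAut.conjNormal (H := N) (g : K))
      have hone : Nat.card (MulAction.fixedPoints (zpowers v) N) = 1 := by
        rw [hfix, Nat.card_eq_fintype_card, Fintype.card_unique]
      rw [hone] at hmod
      have hmod' : Nat.card N % 3 = 1 := hmod
      interval_cases h : Nat.card N <;> omega
  exact Subgroup.eq_top_of_card_eq N (by rw [h24, hk])

theorem one_of_value {K : Type u} [Group K] [Finite K] (hk : Nat.card K = 24) {v : K}
    (hv : Nat.card (centralizer ({v} : Set K)) = 3) {t0 : K} (h2 : t0 * t0 = 1)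
    (hc : Nat.card (centralizer ({t0} : Set K)) = 4) (θ : IrrCharacter K) (h : (θ : K → ℂ) t0 = (θ : K → ℂ) 1) :
    (θ : K → ℂ) = 1 := by
  have := Fintype.ofFinite K
  obtain ⟨n, ρ, hρ, hρχ⟩ := id θ.2
  have h1 : ρ.character t0 = (Module.finrank ℂ (Fin n → ℂ) : ℂ) := by
    rw [← Representation.char_one ρ, hρχ, h]
  have h3 : ρ t0 = LinearMap.id := (Cfsg.Agent.Characters.Values.character_eq_finrank_iff ρ t0).1 h1
  have h4 : (MonoidHom.ker ρ) = ⊤ := top_of hk hv h2 hc (MonoidHom.ker ρ) h3
  have hall : ∀ g, (θ : K → ℂ) g = (θ : K → ℂ) 1 := by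
    intro g
    have hg : g ∈ MonoidHom.ker ρ := h4 ▸ Subgroup.mem_top g
    have hg' : ρ g = 1 := hg
    rw [← hρχ]
    show LinearMap.trace ℂ _ (ρ g) = LinearMap.trace ℂ _ (ρ 1)
    rw [hg', map_one ρ]
  have h5 := classInner_irr_self θ.2
  obtain ⟨a, ha0, ha⟩ := isIrr_apply_one θ.2
  have h6 : (θ : K → ℂ) = (a : ℂ) • (1 : K → ℂ) := by
    funext g
    rw [hall g, ha]; simp
  rw [h6, classInner_smul_left, classInner_smul_right, classInner_irr_self isIrr_one, mul_one] at h5
  simp only [Complex.conj_natCast] at h5
  have h7 : a * a = 1 := by exact_mod_cast h5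
  have h8 : a = 1 := Nat.eq_one_of_mul_eq_one_right h7
  rw [h6, h8, Nat.cast_one, one_smul]

variable {G : Type u} [Group G] [Finite G] {p : ℕ} [hp : Fact p.Prime]

/-- **The characters of height zero with the central character of the principal block at `t`.** -/
theorem mem_principal [IsSimpleGroup G] (hG : ¬ IsMulCommutative G) {N : ℕ}
    (hN : Nat.card G = N) {x : G} (hx : orderOf x = p) {k : ℕ} (hc : Nat.card (centralizer ({x} : Set G)) = p * k)
    (e f : ℕ) (hnum : eOK N p k e f = true) {t : G} (ht : t * t = 1) (hp2 : p ≠ 2) {c s idx : ℕ}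
    (hidx : (centralizer ({t} : Set G)).index = idx) (hcs : s * c = k)
    (hT : ∀ u : G, IsConj t u → u * x = x * u →
      Nat.card (centralizer ({x} : Set G) ⊓ centralizer ({u} : Set G) : Subgroup G) = p * c)
    (hs : sOK p k s idx = true) (χ : IrrCharacter G) (hχ : ¬ p ∣ charDegree (χ : G → ℂ)) {w : ℤ}
    (hw : ((centralizer ({t} : Set G)).index : ℂ) * (χ : G → ℂ) t / (χ : G → ℂ) 1 = w)
    (hws : (p : ℤ) ∣ w - s) (hps : ¬ (p : ℤ) ∣ s) (hk2 : ∀ n : ℕ, n * n ≤ k → 2 * n < p)
    (hloc : ∀ K : Subgroup G, IsComp p (zpowers x) K → Nat.card K = k → ∀ t0 : K, t0 * t0 = 1 →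
      Nat.card (centralizer ({t0} : Set K)) = c → ∀ θ : IrrCharacter K, (θ : K → ℂ) t0 = (θ : K → ℂ) 1 →
        (θ : K → ℂ) = 1)
    {M : Ideal AlgInt} (hM : IsPModular p M) : χ ∈ principalBlock M G := by
  classical
  have := finite_irr (G := G)
  have := Fintype.ofFinite (IrrCharacter G)
  obtain ⟨P, K, hP, hPx, hK, hKk, hef, hrel⟩ := exists_data hG hN hx hc e f hnum
  have := finite_irr (G := K)
  have := Fintype.ofFinite (IrrCharacter K)
  have hKf := Fintype.ofFinite K
  have hto : ¬ p ∣ orderOf t := by
    intro h
    have h1 : orderOf t ∣ 2 := orderOf_dvd_of_pow_eq_one (by rw [pow_two, ht])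
    exact hp2 ((Nat.prime_dvd_prime_iff_eq hp.out Nat.prime_two).1 (h.trans h1))
  obtain ⟨t0, ht0, hS, hct0, hit0⟩ := class_single hK hP hPx hKk hcs hto hidx hT hs
  obtain ⟨θ, m, n, hm, hn, hm0, hn0, hme, hnk, -, x', hx', hnd⟩ := H792.M23.Loc.exists_theta hK hP hrel hef χ hχ
  have htt : t0 * t0 = 1 := by
    obtain ⟨g, hg⟩ := isConj_iff.1 ht0
    apply Subtype.ext
    show (t0 : G) * t0 = 1
    rw [← hg]
    calc g * t * g⁻¹ * (g * t * g⁻¹) = g * (t * t) * g⁻¹ := by group
      _ = 1 := by rw [ht]; group
  obtain ⟨τ, hτ, -⟩ := value_invol θ htt hn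
  have hcon := central_congr hK hP χ θ hnd hto hS hw hτ hn
  rw [hit0] at hcon
  -- `n ^ 2 ≤ k`
  have hsq := (H653.Sieve.orb_sq_le hK θ.2).1
  have hdeg : charDegree (θ : K → ℂ) = n := by
    unfold charDegree
    rw [hn]; simp
  rw [hdeg, hKk, ← hm] at hsq
  have hn2 : 2 * n < p := hk2 n (le_trans (Nat.le_mul_of_pos_left _ hm0) hsq)
  -- `|τ| ≤ n`
  have hle := Cfsg.Agent.Characters.SchurBound.norm_le (isIrr_isCharacter θ.2) hn t0
  rw [hτ, Complex.norm_intCast] at hle
  have hle' : |τ| ≤ (n : ℤ) := by exact_mod_cast hle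
  obtain ⟨hl1, hl2⟩ := abs_le.1 hle'
  have hpi : Prime (p : ℤ) := Nat.prime_iff_prime_int.1 hp.out
  have h1 : (p : ℤ) ∣ s * (n - τ) := by
    have h2 : (s : ℤ) * (n - τ) = (n * w - s * τ) - n * (w - s) := by ring
    rw [h2]
    exact dvd_sub hcon (Dvd.dvd.mul_left hws _)
  have h2 : (p : ℤ) ∣ n - τ := (hpi.dvd_or_dvd h1).resolve_left hps
  have h3 : (n : ℤ) - τ = 0 := by
    apply Int.eq_zero_of_dvd_of_nonneg_of_lt _ _ h2
    · omega
    · have : (2 * n : ℤ) < p := by exact_mod_cast hn2
      omega
  have h4 : (θ : K → ℂ) = 1 := by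
    refine hloc K (by rw [← hPx]; exact hK) hKk t0 htt hct0 θ ?_
    rw [hτ, hn]
    have h5 : τ = (n : ℤ) := by omega
    rw [h5]
    norm_cast
  rw [← mem_Over_one_iff hK hP hp2 hM χ, ← h4]
  refine ⟨x', hx', fun h => hnd 0 ?_⟩
  rw [h]
  simp

end Cfsg.Agent.H436.M23.BTwA
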